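import Mathlib

set_option autoImplicit false

namespace Cfsg.Agent.Lib.Helper9.Decomp

variable {F V : Type*} [Field F] [AddCommGroup V] [Module F V] {ι : Type*} [Fintype ι]
  [DecidableEq ι]

/-- the component maps of an internal direct sum decomposition -/
noncomputable def comp (D : ι → Submodule F V) (h : DirectSum.IsInternal D) (i : ι) :
    V →ₗ[F] V :=
  letI := h.chooseDecomposition
  (D i).subtype ∘ₗ (DirectSum.component F ι (fun i => D i) i) ∘ₗ
    (DirectSum.decomposeLinearEquiv D).toLinearMap

theorem comp_mem (D : ι → Submodule F V) (h : DirectSum.IsInternal D) (i : ι) (v : V) :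
    comp D h i v ∈ D i := by
  letI := h.chooseDecomposition
  show ((DirectSum.decompose D v) i : V) ∈ D i
  exact SetLike.coe_mem _

theorem comp_of_mem (D : ι → Submodule F V) (h : DirectSum.IsInternal D) {j : ι} {v : V}
    (hv : v ∈ D j) (i : ι) : comp D h i v = if i = j then v else 0 := by
  letI := h.chooseDecomposition
  show ((DirectSum.decompose D v) i : V) = _
  split_ifs with hij
  · subst hij
    exact DirectSum.decompose_of_mem_same D hv
  · exact DirectSum.decompose_of_mem_ne D hv (Ne.symm hij)

theorem sum_comp (D : ι → Submodule F V) (h : DirectSum.IsInternal D) (v : V) :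
    ∑ i, comp D h i v = v := by
  letI := h.chooseDecomposition
  refine DirectSum.Decomposition.inductionOn D ?_ ?_ ?_ v
  · simp
  · intro j m
    rw [Finset.sum_congr rfl (fun i _ => comp_of_mem D h m.2 i)]
    simp
  · intro x y hx hy
    simp only [map_add, Finset.sum_add_distrib, hx, hy]

theorem comp_perm (D : ι → Submodule F V) (h : DirectSum.IsInternal D) (g : V →ₗ[F] V)
    (σ : Equiv.Perm ι) (hσ : ∀ i, ∀ x ∈ D i, g x ∈ D (σ i)) (i : ι) (v : V) :
    comp D h (σ i) (g v) = g (comp D h i v) := by
  conv_lhs => rw [← sum_comp D h v]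
  rw [map_sum, map_sum]
  rw [Finset.sum_congr rfl (fun j _ => comp_of_mem D h (hσ j _ (comp_mem D h j v)) (σ i))]
  simp only [σ.injective.eq_iff]
  simp

open Classical in
/-- the number of non-zero components, as an element of the field -/
noncomputable def wt (D : ι → Submodule F V) (h : DirectSum.IsInternal D) (v : V) : F :=
  ∑ i, if comp D h i v = 0 then (0 : F) else 1

theorem wt_perm (D : ι → Submodule F V) (h : DirectSum.IsInternal D) (g : V →ₗ[F] V)
    (σ : Equiv.Perm ι) (hσ : ∀ i, ∀ x ∈ D i, g x ∈ D (σ i)) (hinj : ∀ x, g x = 0 → x = 0)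
    (v : V) : wt D h (g v) = wt D h v := by
  classical
  unfold wt
  rw [← Equiv.sum_comp σ]
  apply Finset.sum_congr rfl
  intro i _
  rw [comp_perm D h g σ hσ i v]
  by_cases h0 : comp D h i v = 0
  · rw [h0, map_zero]
  · rw [if_neg h0, if_neg (fun h1 => h0 (hinj _ h1))]

theorem wt_of_mem (D : ι → Submodule F V) (h : DirectSum.IsInternal D) {j : ι} {v : V}
    (hv : v ∈ D j) (hv0 : v ≠ 0) : wt D h v = 1 := by
  classical
  unfold wt
  rw [Finset.sum_congr rfl (fun i _ => by rw [comp_of_mem D h hv i])]
  rw [Finset.sum_eq_single j]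
  · simp [hv0]
  · intro i _ hij
    simp [hij]
  · intro hj
    exact absurd (Finset.mem_univ j) hj

end Cfsg.Agent.Lib.Helper9.Decomp
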